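import Cfsg.Agent.H277.EM.Univ
import Cfsg.Agent.S2043
import Cfsg.Agent.S2044
import Cfsg.Agent.CTwoTab.Co1
import Cfsg.Agent.Co2Type.FactsClass

/-!
# The rows `Co₂`, `Co₁` for S2243 (helper715)

`Co₂` has no double cover; its three classes of involutions have representatives among the sign changes. Every perfect
central extension of `Co₁` by a 2-group is `Co₁` or `Co₀`; all involutions of `Co₀` are conjugate to sign changes, and `Co₁` has the
representatives `b₀`, an octad and a dodecad fixed by the permutation of `b₀`.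
-/

set_option autoImplicit false

namespace Cfsg.Agent.H715.EM.Co

open Cfsg Cfsg.Agent.H277.MI Subgroup
open Cfsg.Agent.H51.Mult (PCE)

universe u

/-! ### `Co₂` -/

section

open Cfsg.Agent.Co2Type.Mono Cfsg.Agent.SporadicStructure.M24El Cfsg.Agent.Co2Type.FactsClass

theorem em_co2 : EM Spor.Co2 := by
  obtain ⟨s, hs⟩ : ∃ s : Set Spor.Co2, s = {x | ∃ m, inE m = true ∧ x = mo2 m idP} := ⟨_, rfl⟩
  refine em_of_commuting s ?_ ?_ ?_
  · rw [hs]
    rintro x ⟨m, hm, rfl⟩
    rw [mo2_mul_left hm hm okP_idP, Nat.xor_self, mo2_one]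
  · rw [hs]
    rintro x ⟨m, hm, rfl⟩ y ⟨n, hn, rfl⟩
    rw [mo2_mul_left hm hn okP_idP, mo2_mul_left hn hm okP_idP, Nat.xor_comm]
  · intro t ht
    have key : ∀ m, inE m = true → IsConj (mo2 m idP) t → ∃ g : Spor.Co2, g * t * g⁻¹ ∈ closure s := by
      intro m hm h
      obtain ⟨g, hg⟩ := isConj_iff.1 h.symm
      refine ⟨g, ?_⟩
      rw [hg]
      exact subset_closure (by rw [hs]; exact ⟨m, hm, rfl⟩)
    rcases classes (sq_of_orderOf ht) (ne_one_of_orderOf ht) with h | h | h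
    · exact key _ (by decide +kernel) h
    · exact key _ (by decide +kernel) h
    · exact key _ (by decide +kernel) h

/-- **the row `Co₂`** -/
theorem crow_co2 {L : Type u} [Group L] (h : Cfsg.Spor.IsoCo2 L) : CRow L := by
  obtain ⟨e⟩ := h
  exact CRow.congr e (CRow.of_noCov (noCov_of_cyclic S2044.result odd_one) em_co2)

end

/-! ### `Co₁` -/

section

open Cfsg.Agent.SporadicA.GolayBase Cfsg.Agent.SporadicA.GolayPerm Cfsg.Agent.SporadicStructure.M24El
open Cfsg.Agent.SporadicA.Co0Mono Cfsg.Agent.SporadicA.Co1Simple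
open Cfsg.Agent.CoOneType.SignFacts (sup mem_sup wt)
open Cfsg.Agent.CoOneType.ClosingFacts (mk mk_mul mk_inv exists_mk mk_eq_one mk_eq)
open Cfsg.Agent.CoOneType.InvMain (b0 b0_mul_self conj_sign_of_sq_one)
open Cfsg.Agent.Co2Type.Mono
open Cfsg.Agent.J4.M24InvolData (P2)

theorem em_co0 : EM Co0 := by
  refine em_of_commuting (Set.range signCo0) ?_ ?_ ?_
  · rintro x ⟨c, rfl⟩
    exact signCo0_mul_self c
  · rintro x ⟨c, rfl⟩ y ⟨d, rfl⟩
    rw [← signCo0_add, ← signCo0_add, add_comm]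
  · intro t ht
    obtain ⟨g, c, hg⟩ := conj_sign_of_sq_one t (sq_of_orderOf ht)
    exact ⟨g, by rw [hg]; exact subset_closure ⟨c, rfl⟩⟩

theorem b0_comm {m : ℕ} (hm : isCode m = true) (h : pimg P2 m = m) : signCo0 (cd m) * b0 = b0 * signCo0 (cd m) := by
  have h2 : wordPerm (el P2) (cd m) = cd m := by rw [wordPerm_cd KFacts.Co1D4.Order.ok_P2 hm, h]
  unfold b0
  rw [mul_assoc, perm_mul_sign, h2, ← mul_assoc, ← signCo0_add, ← mul_assoc, ← signCo0_add, add_comm]

theorem em_co1 : EM Spor.Co1 := by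
  have hc1 : isCode 11538486 = true := by decide +kernel
  have hc2 : isCode 13553934 = true := by decide +kernel
  have w1 : wt (cd 11538486) = 8 := by rw [KFacts.Co1D4.DodBal.wt_cd hc1]; decide +kernel
  have w2 : wt (cd 13553934) = 12 := by rw [KFacts.Co1D4.DodBal.wt_cd hc2]; decide +kernel
  have f1 := b0_comm hc1 (by decide +kernel)
  have f2 := b0_comm hc2 (by decide +kernel)
  have hss : ∀ c d : golayCode, mk (signCo0 c) * mk (signCo0 d) = mk (signCo0 d) * mk (signCo0 c) := by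
    intro c d
    rw [← mk_mul, ← mk_mul, ← signCo0_add, ← signCo0_add, add_comm]
  have hsq : ∀ c : golayCode, mk (signCo0 c) * mk (signCo0 c) = 1 := by
    intro c
    rw [← mk_mul, signCo0_mul_self]
    rfl
  have hb : mk b0 * mk b0 = 1 := by
    rw [← mk_mul, b0_mul_self, mk_eq_one]
    exact Or.inr rfl
  have hb1 : mk (signCo0 (cd 11538486)) * mk b0 = mk b0 * mk (signCo0 (cd 11538486)) := by
    rw [← mk_mul, ← mk_mul, f1]
  have hb2 : mk (signCo0 (cd 13553934)) * mk b0 = mk b0 * mk (signCo0 (cd 13553934)) := by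
    rw [← mk_mul, ← mk_mul, f2]
  refine em_of_commuting {mk b0, mk (signCo0 (cd 11538486)), mk (signCo0 (cd 13553934))} ?_ ?_ ?_
  · rintro x (rfl | rfl | rfl)
    · exact hb
    · exact hsq _
    · exact hsq _
  · rintro x (rfl | rfl | rfl) y (rfl | rfl | rfl)
    · rfl
    · exact hb1.symm
    · exact hb2.symm
    · exact hb1
    · rfl
    · exact hss _ _
    · exact hb2
    · exact hss _ _
    · rfl
  · intro t ht
    rcases KFacts.Co1D4.Base.cases t (sq_of_orderOf ht) (ne_one_of_orderOf ht) with ⟨g, c, hc, rfl⟩ | ⟨g, c, hc, rfl⟩ | ⟨g, rfl⟩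
    · obtain ⟨y, hy⟩ := isConj_iff.1 (CoOneType.CoOneE.isConj_of_wt c (cd 11538486) (Or.inl ⟨hc, w1⟩))
      refine ⟨y * g⁻¹, ?_⟩
      have e : y * g⁻¹ * (g * mk (signCo0 c) * g⁻¹) * (y * g⁻¹)⁻¹ = y * mk (signCo0 c) * y⁻¹ := by group
      rw [e]
      have e2 : y * mk (signCo0 c) * y⁻¹ = mk (signCo0 (cd 11538486)) := hy
      rw [e2]
      exact subset_closure (Or.inr (Or.inl rfl))
    · obtain ⟨y, hy⟩ := isConj_iff.1 (CoOneType.CoOneE.isConj_of_wt c (cd 13553934) (Or.inr ⟨hc, w2⟩))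
      refine ⟨y * g⁻¹, ?_⟩
      have e : y * g⁻¹ * (g * mk (signCo0 c) * g⁻¹) * (y * g⁻¹)⁻¹ = y * mk (signCo0 c) * y⁻¹ := by group
      rw [e]
      have e2 : y * mk (signCo0 c) * y⁻¹ = mk (signCo0 (cd 13553934)) := hy
      rw [e2]
      exact subset_closure (Or.inr (Or.inr rfl))
    · refine ⟨g⁻¹, ?_⟩
      have e : g⁻¹ * (g * mk b0 * g⁻¹) * g⁻¹⁻¹ = mk b0 := by group
      rw [e]
      exact subset_closure (Or.inl rfl)

theorem crow_co1' : CRow Spor.Co1 := by
  intro L _ _ π hπ _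
  have := Cfsg.Agent.H49.CoOnePr.finite_co0
  have hσ : PCE Cfsg.Agent.H49.CoOnePr.pr := ⟨Cfsg.Agent.H49.CoOnePr.pr_surjective, Cfsg.Agent.H49.CoOnePr.ker_pr.le,
    Cfsg.Agent.KFacts.MulCo.CoZero.commutator_co0⟩
  have hcard : Nat.card Cfsg.Agent.H49.CoOnePr.pr.ker = 2 := Cfsg.Agent.H49.CoOnePr.card_ker
  obtain ⟨f, hf, hπf⟩ := exists_cover_map_cyclic hσ hπ S2043.result (by rw [hcard])
  have hle : f.ker ≤ Cfsg.Agent.H49.CoOnePr.pr.ker := by
    intro x hx
    rw [MonoidHom.mem_ker] at hx ⊢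
    rw [← hπf, hx, map_one]
  have hd := card_dvd_of_le hle
  rw [hcard] at hd
  rcases (Nat.dvd_prime Nat.prime_two).1 hd with h | h
  · have hinj : Function.Injective f := by
      rw [← MonoidHom.ker_eq_bot_iff]
      exact Subgroup.eq_bot_of_card_eq _ h
    exact EM.congr (MulEquiv.ofBijective f ⟨hinj, hf⟩).symm em_co0
  · have heq : f.ker = Cfsg.Agent.H49.CoOnePr.pr.ker := eq_of_le_of_card_ge hle (by rw [h, hcard])
    have hinj : Function.Injective π := by
      rw [← MonoidHom.ker_eq_bot_iff, eq_bot_iff]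
      intro x hx
      obtain ⟨y, rfl⟩ := hf x
      rw [MonoidHom.mem_ker, hπf] at hx
      have hy : y ∈ f.ker := by rw [heq]; exact hx
      exact hy
    exact EM.congr (MulEquiv.ofBijective π ⟨hinj, hπ.surj⟩) em_co1

/-- **the row `Co₁`** -/
theorem crow_co1 {L : Type u} [Group L] (h : Cfsg.Spor.IsoCo1 L) : CRow L := by
  obtain ⟨e⟩ := h
  exact CRow.congr e crow_co1'

end

end Cfsg.Agent.H715.EM.Co
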